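import Mathlib
import Cfsg.Agent.Lib.PGroups.Basic
import Cfsg.Agent.Lib.Components.Basic

/-!
# The centralizer in `A⟨y⟩` and a norm argument
-/

set_option autoImplicit false

namespace Cfsg.Agent.Lib.AbP2.Norm

open Subgroup Cfsg.Agent.Lib.PGroups.Basic
open scoped commutatorElement

universe u

variable {p : ℕ} [hp : Fact p.Prime] {X : Type u} [Group X] [Finite X]

theorem mem_normalizer_of_conj_mem {H : Subgroup X} {g : X} (h : ∀ x ∈ H, g * x * g⁻¹ ∈ H) :
    g ∈ normalizer (H : Set X) := by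
  classical
  rw [mem_normalizer_iff]
  intro x
  refine ⟨h x, fun hx => ?_⟩
  -- injective self-map of the finite set `H`
  have hinj : Function.Injective (fun y : H => (⟨g * y * g⁻¹, h y y.2⟩ : H)) := by
    intro a b hab
    apply Subtype.ext
    have := congrArg Subtype.val hab
    simpa using this
  obtain ⟨y, hy⟩ := (Finite.injective_iff_surjective.mp hinj) ⟨g * x * g⁻¹, hx⟩
  have h1 : g * (y : X) * g⁻¹ = g * x * g⁻¹ := congrArg Subtype.val hy
  have h2 : (y : X) = x := by simpa using h1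
  exact h2 ▸ y.2

/-- Generation by a subgroup of prime index and an element outside it. -/
theorem exists_gen_of_index (A : Subgroup X) [hN : A.Normal] (hA : A.index = p) {y : X} (hy : y ∉ A)
    (x : X) : ∃ k : ℤ, ∃ a ∈ A, x = y ^ k * a := by
  have hc : IsCoatom A := isCoatom_of_index_prime (by rw [hA]; exact hp.out)
  have h1 : zpowers y ⊔ A = ⊤ := by
    rw [sup_comm]
    apply hc.2
    refine lt_of_le_of_ne le_sup_left ?_
    intro h
    exact hy (by rw [h]; exact (le_sup_right : zpowers y ≤ A ⊔ zpowers y) (mem_zpowers y))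
  have hx : x ∈ zpowers y ⊔ A := h1 ▸ mem_top x
  obtain ⟨u, hu, a, ha, rfl⟩ := mem_sup_of_normal_right.mp hx
  obtain ⟨k, rfl⟩ := mem_zpowers_iff.mp hu
  exact ⟨k, a, ha, rfl⟩

/-- Commutator inclusion from centrality modulo `D`. -/
theorem commutator_le_of_central (A D : Subgroup X) [hD : D.Normal] (y : X)
    (hgen : ∀ x : X, ∃ k : ℤ, ∃ a ∈ A, x = y ^ k * a)
    (h1 : ∀ a ∈ A, a * y * a⁻¹ * y⁻¹ ∈ D) (h2 : ∀ a ∈ A, ∀ b ∈ A, a * b * a⁻¹ * b⁻¹ ∈ D) :
    commutator X ≤ D := by
  apply Subgroup.Normal.quotient_commutative_iff_commutator_le.mp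
  have hy : ∀ a ∈ A, Commute (QuotientGroup.mk' D a) (QuotientGroup.mk' D y) := by
    intro a ha
    have := (QuotientGroup.eq_one_iff _).mpr (h1 a ha)
    have h3 : QuotientGroup.mk' D (a * y * a⁻¹ * y⁻¹) = 1 := this
    simp only [map_mul, map_inv] at h3
    apply commutatorElement_eq_one_iff_commute.mp
    rw [commutatorElement_def]
    exact h3
  have hab : ∀ a ∈ A, ∀ b ∈ A, Commute (QuotientGroup.mk' D a) (QuotientGroup.mk' D b) := by
    intro a ha b hb
    have := (QuotientGroup.eq_one_iff _).mpr (h2 a ha b hb)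
    have h3 : QuotientGroup.mk' D (a * b * a⁻¹ * b⁻¹) = 1 := this
    simp only [map_mul, map_inv] at h3
    apply commutatorElement_eq_one_iff_commute.mp
    rw [commutatorElement_def]
    exact h3
  refine ⟨⟨?_⟩⟩
  intro u v
  obtain ⟨x, rfl⟩ := QuotientGroup.mk'_surjective D u
  obtain ⟨x', rfl⟩ := QuotientGroup.mk'_surjective D v
  obtain ⟨k, a, ha, rfl⟩ := hgen x
  obtain ⟨l, b, hb, rfl⟩ := hgen x'
  simp only [map_mul, map_zpow]
  have c1 : Commute (QuotientGroup.mk' D y ^ k) (QuotientGroup.mk' D y ^ l) :=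
    (Commute.refl _).zpow_zpow k l
  have c2 : Commute (QuotientGroup.mk' D a) (QuotientGroup.mk' D y ^ l) := (hy a ha).zpow_right l
  have c3 : Commute (QuotientGroup.mk' D y ^ k) (QuotientGroup.mk' D b) := ((hy b hb).zpow_right k).symm
  have c4 := hab a ha b hb
  exact ((c1.mul_right c3).mul_left (c2.mul_right c4)).eq

/-- The centralizer of an element outside an abelian normal subgroup of prime index. -/
theorem card_centralizer (A : Subgroup X) [hN : A.Normal] (hA : A.index = p)
    (hab : ∀ a ∈ A, ∀ b ∈ A, a * b = b * a) (hrel : (commutator X).relIndex A = p)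
    (y : X) (hy : y ∉ A) : Nat.card (centralizer ({y} : Set X)) = p ^ 2 := by
  classical
  have hgen := exists_gen_of_index A hA hy
  have hmem : ∀ a ∈ A, a * (y * a⁻¹ * y⁻¹) ∈ A := fun a ha =>
    A.mul_mem ha (hN.conj_mem _ (A.inv_mem ha) y)
  let c : A →* A := MonoidHom.mk' (fun a => ⟨(a : X) * (y * (a : X)⁻¹ * y⁻¹), hmem a a.2⟩) (by
    intro a b
    apply Subtype.ext
    have h1 := hN.conj_mem _ (A.inv_mem a.2) y
    have h2 := hN.conj_mem _ (A.inv_mem b.2) y
    have e1 : (y * (b : X)⁻¹ * y⁻¹) * (y * (a : X)⁻¹ * y⁻¹) = (y * (a : X)⁻¹ * y⁻¹) * (y * (b : X)⁻¹ * y⁻¹) :=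
      hab _ h2 _ h1
    have e2 : (b : X) * (y * (a : X)⁻¹ * y⁻¹) = (y * (a : X)⁻¹ * y⁻¹) * b := hab _ b.2 _ h1
    simp only [Subgroup.coe_mul, mul_inv_rev]
    calc (a : X) * b * (y * ((b : X)⁻¹ * (a : X)⁻¹) * y⁻¹)
        = a * b * ((y * (b : X)⁻¹ * y⁻¹) * (y * (a : X)⁻¹ * y⁻¹)) := by group
      _ = a * b * ((y * (a : X)⁻¹ * y⁻¹) * (y * (b : X)⁻¹ * y⁻¹)) := by rw [e1]
      _ = a * (b * (y * (a : X)⁻¹ * y⁻¹)) * (y * (b : X)⁻¹ * y⁻¹) := by group
      _ = a * ((y * (a : X)⁻¹ * y⁻¹) * b) * (y * (b : X)⁻¹ * y⁻¹) := by rw [e2]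
      _ = a * (y * (a : X)⁻¹ * y⁻¹) * (b * (y * (b : X)⁻¹ * y⁻¹)) := by group)
  have hcA : ∀ a : A, ((c a : A) : X) = (a : X) * y * (a : X)⁻¹ * y⁻¹ := fun a => by
    show (a : X) * (y * (a : X)⁻¹ * y⁻¹) = _
    group
  set B : Subgroup X := c.range.map A.subtype with hB
  have hBA : B ≤ A := map_subtype_le _
  -- `B` normal
  have hNorm : B.Normal := by
    rw [← normalizer_eq_top_iff, eq_top_iff]
    intro x _
    obtain ⟨k, a, ha, rfl⟩ := hgen x
    apply mul_mem
    · apply zpow_mem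
      apply mem_normalizer_of_conj_mem
      rintro _ ⟨_, ⟨a', rfl⟩, rfl⟩
      refine ⟨_, ⟨MulAut.conjNormal y a', rfl⟩, ?_⟩
      simp only [subtype_apply, hcA, MulAut.conjNormal_apply]
      group
    · apply mem_normalizer_of_conj_mem
      rintro b hb
      have hb' := hBA hb
      have e : a * b * a⁻¹ = b := by
        rw [hab a ha b hb', mul_inv_cancel_right]
      rw [e]
      exact hb
  have hD : commutator X ≤ B := by
    apply commutator_le_of_central A B y hgen
    · intro a ha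
      refine ⟨_, ⟨⟨a, ha⟩, rfl⟩, ?_⟩
      rw [subtype_apply, hcA]
    · intro a ha b hb
      rw [hab a ha b hb, mul_inv_cancel_right, mul_inv_cancel]
      exact B.one_mem
  have hBD : B ≤ commutator X := by
    rintro _ ⟨_, ⟨a, rfl⟩, rfl⟩
    rw [subtype_apply, hcA]
    exact commutator_mem_commutator (mem_top _) (mem_top _)
  have hBeq : B = commutator X := le_antisymm hBD hD
  -- `|C_A(y)| = p`
  have hcardB : Nat.card B = Nat.card c.range :=
    Nat.card_congr (Subgroup.equivMapOfInjective _ _ A.subtype_injective).toEquiv.symm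
  have hker : Nat.card c.ker = p := by
    have h1 := card_mul_index c.ker
    rw [index_ker, ← hcardB, hBeq] at h1
    have h2 := card_mul_index ((commutator X).subgroupOf A)
    rw [← relIndex, hrel] at h2
    have h3 : Nat.card ((commutator X).subgroupOf A) = Nat.card (commutator X) :=
      Nat.card_congr (subgroupOfEquivOfLe (by rw [← hBeq]; exact hBA)).toEquiv
    rw [h3] at h2
    have hpos : 0 < Nat.card (commutator X) := Nat.card_pos
    have h4 : Nat.card c.ker * Nat.card (commutator X) = p * Nat.card (commutator X) := by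
      rw [h1, ← h2, mul_comm]
    exact Nat.eq_of_mul_eq_mul_right hpos h4
  set C := centralizer ({y} : Set X) with hC
  have hmemC : ∀ u : X, u ∈ C ↔ u * y = y * u := fun u => by
    rw [hC, mem_centralizer_singleton_iff]
  have hAC : Nat.card (A ⊓ C : Subgroup X) = p := by
    rw [← hker]
    refine Nat.card_congr ⟨fun u => ⟨⟨(u : X), u.2.1⟩, ?_⟩,
      fun v => ⟨((v : A) : X), (v : A).2, ?_⟩, ?_, ?_⟩
    · rw [MonoidHom.mem_ker]
      apply Subtype.ext
      rw [hcA]
      have h5 := (hmemC _).mp u.2.2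
      simp only [OneMemClass.coe_one]
      rw [h5]
      group
    · have h5 : c v = 1 := v.2
      have h6 := congrArg Subtype.val h5
      rw [hcA] at h6
      apply (hmemC _).mpr
      simp only [OneMemClass.coe_one] at h6
      have h7 : ((v : A) : X) * y * ((v : A) : X)⁻¹ = y := by
        exact mul_inv_eq_one.mp h6
      exact mul_inv_eq_iff_eq_mul.mp h7
    · intro u; rfl
    · intro v; rfl
  have hc : IsCoatom A := isCoatom_of_index_prime (by rw [hA]; exact hp.out)
  have hsup : A ⊔ C = ⊤ := by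
    apply hc.2
    refine lt_of_le_of_ne le_sup_left ?_
    intro h
    apply hy
    rw [h]
    exact (le_sup_right : C ≤ A ⊔ C) ((hmemC y).mpr rfl)
  have hrelAC : A.relIndex C = p := by
    rw [← relIndex_sup_left, hsup, relIndex_top_right, hA]
  have h8 := card_mul_index ((A ⊓ C).subgroupOf C)
  rw [← relIndex, inf_relIndex_right, hrelAC] at h8
  have h9 : Nat.card ((A ⊓ C).subgroupOf C) = Nat.card (A ⊓ C : Subgroup X) :=
    Nat.card_congr (subgroupOfEquivOfLe inf_le_right).toEquiv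
  rw [h9, hAC] at h8
  rw [← h8, pow_two]

/-- A `p`-group whose commutator subgroup has index at most `p` is abelian (cyclic). -/
theorem comm_of_index_le {Y : Type*} [Group Y] [Finite Y] (hY : IsPGroup p Y)
    (h : (commutator Y).index ≤ p) (a b : Y) : a * b = b * a := by
  have hD : commutator Y ≤ frattini Y := commutator_le_frattini hY
  obtain ⟨z, hz⟩ : ∃ z : Y, zpowers z ⊔ commutator Y = ⊤ := by
    by_cases htop : commutator Y = ⊤
    · exact ⟨1, by rw [htop, sup_top_eq]⟩
    · obtain ⟨m, hm⟩ := hY.index (commutator Y)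
      have hm1 : m ≠ 0 := by
        rintro rfl
        apply htop
        rw [pow_zero] at hm
        exact index_eq_one.mp hm
      have hm2 : m = 1 := by
        rw [hm] at h
        have hle : p ^ m ≤ p ^ 1 := by simpa using h
        have := (Nat.pow_le_pow_iff_right hp.out.one_lt).mp hle
        omega
      subst hm2
      rw [pow_one] at hm
      have hc : IsCoatom (commutator Y) := isCoatom_of_index_prime (by rw [hm]; exact hp.out)
      obtain ⟨z, hz⟩ : ∃ z, z ∉ commutator Y := by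
        by_contra hcon
        push Not at hcon
        exact htop (eq_top_iff.mpr fun x _ => hcon x)
      refine ⟨z, ?_⟩
      rw [sup_comm]
      apply hc.2
      refine lt_of_le_of_ne le_sup_left ?_
      intro h'
      exact hz (by rw [h']; exact (le_sup_right : zpowers z ≤ _ ⊔ zpowers z) (mem_zpowers z))
  have h1 : zpowers z ⊔ frattini Y = ⊤ := by
    rw [eq_top_iff, ← hz]
    exact sup_le_sup_left hD _
  have h2 : zpowers z = ⊤ := frattini_nongenerating h1
  have ha : a ∈ zpowers z := h2 ▸ mem_top a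
  have hb : b ∈ zpowers z := h2 ▸ mem_top b
  obtain ⟨i, rfl⟩ := mem_zpowers_iff.mp ha
  obtain ⟨j, rfl⟩ := mem_zpowers_iff.mp hb
  exact ((Commute.refl z).zpow_zpow i j).eq

/-- The norm map from `A` to its abelianization. -/
noncomputable def normMap (A : Subgroup X) [A.Normal] (t : X) (p : ℕ) : A →* Abelianization A :=
  ∏ i ∈ Finset.range p, (Abelianization.of.comp (MulAut.conjNormal (t ^ i)).toMonoidHom)

theorem normMap_apply (A : Subgroup X) [A.Normal] (t : X) (p : ℕ) (a : A) :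
    normMap A t p a = ∏ i ∈ Finset.range p, Abelianization.of (MulAut.conjNormal (t ^ i) a) := by
  simp [normMap]

theorem normMap_conj (A : Subgroup X) [A.Normal] (t : X) (p : ℕ) (htp : t ^ p ∈ A) (a : A) :
    normMap A t p (MulAut.conjNormal t a) = normMap A t p a := by
  set g : ℕ → Abelianization A := fun i => Abelianization.of (MulAut.conjNormal (t ^ i) a) with hg
  have h1 : normMap A t p (MulAut.conjNormal t a) = ∏ i ∈ Finset.range p, g (i + 1) := by
    rw [normMap_apply]
    apply Finset.prod_congr rfl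
    intro i _
    show Abelianization.of _ = Abelianization.of (MulAut.conjNormal (t ^ (i + 1)) a)
    rw [pow_succ, map_mul]
    rfl
  have h2 : normMap A t p a = ∏ i ∈ Finset.range p, g i := normMap_apply A t p a
  have h3 := Finset.prod_range_succ' g p
  have h4 := Finset.prod_range_succ g p
  have h0 : g 0 = Abelianization.of a := by simp [hg]
  have hp' : g p = Abelianization.of a := by
    have e : MulAut.conjNormal (t ^ p) a = (⟨t ^ p, htp⟩ : A) * a * (⟨t ^ p, htp⟩ : A)⁻¹ := by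
      apply Subtype.ext
      rw [MulAut.conjNormal_apply]
      rfl
    rw [hg]
    simp only
    rw [e, map_mul, map_mul, map_inv, mul_comm, inv_mul_cancel_left]
  rw [h1, h2]
  rw [h4, hp', h0] at h3
  exact (mul_right_cancel h3).symm

omit [Finite X] in
theorem commutator_mul_mul {f1 f2 e1 e2 : X} (c11 : Commute f1 e1) (c12 : Commute f1 e2)
    (c21 : Commute f2 e1) (c22 : Commute f2 e2) : ⁅f1 * e1, f2 * e2⁆ = ⁅f1, f2⁆ * ⁅e1, e2⁆ := by
  have h1 : f1 * e1 * (f2 * e2) = f1 * f2 * (e1 * e2) := by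
    calc f1 * e1 * (f2 * e2) = f1 * (e1 * f2) * e2 := by group
      _ = f1 * (f2 * e1) * e2 := by rw [c21.eq]
      _ = f1 * f2 * (e1 * e2) := by group
  have h2 : (f1 * e1)⁻¹ = f1⁻¹ * e1⁻¹ := by
    rw [mul_inv_rev]
    exact (c11.inv_inv).eq.symm
  have h3 : (f2 * e2)⁻¹ = f2⁻¹ * e2⁻¹ := by
    rw [mul_inv_rev]
    exact (c22.inv_inv).eq.symm
  have c5 : Commute (e1 * e2) f1⁻¹ := (c11.symm.mul_left c12.symm).inv_right
  have c6 : Commute (e1 * e2 * e1⁻¹) f2⁻¹ :=
    ((c21.symm.mul_left c22.symm).mul_left c21.symm.inv_left).inv_right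
  rw [commutatorElement_def, commutatorElement_def, commutatorElement_def, h1, h2, h3]
  calc f1 * f2 * (e1 * e2) * (f1⁻¹ * e1⁻¹) * (f2⁻¹ * e2⁻¹)
      = f1 * f2 * ((e1 * e2) * f1⁻¹) * e1⁻¹ * (f2⁻¹ * e2⁻¹) := by group
    _ = f1 * f2 * (f1⁻¹ * (e1 * e2)) * e1⁻¹ * (f2⁻¹ * e2⁻¹) := by rw [c5.eq]
    _ = f1 * f2 * f1⁻¹ * ((e1 * e2 * e1⁻¹) * f2⁻¹) * e2⁻¹ := by group
    _ = f1 * f2 * f1⁻¹ * (f2⁻¹ * (e1 * e2 * e1⁻¹)) * e2⁻¹ := by rw [c6.eq]
    _ = f1 * f2 * f1⁻¹ * f2⁻¹ * (e1 * e2 * e1⁻¹ * e2⁻¹) := by group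

/-- The norm argument: `F` is abelian. -/
theorem comm_of_norm (hX : IsPGroup p X) (A F E : Subgroup X) [hN : A.Normal] (t : X)
    (hA : A.index = p) (htA : t ∉ A) (hrel : (commutator X).relIndex A = p)
    (hFA : F ≤ A) (hEA : E ≤ A)
    (hdec : ∀ a ∈ A, ∃ f ∈ F, ∃ e ∈ E, a = f * e) (hcomm : ∀ f ∈ F, ∀ e ∈ E, f * e = e * f)
    (hdisj : F ⊓ E = ⊥)
    (hmove : ∀ i : ℕ, 0 < i → i < p → ∀ f ∈ F, t ^ i * f * (t ^ i)⁻¹ ∈ E) :
    ∀ a ∈ F, ∀ b ∈ F, a * b = b * a := by
  classical
  have hp' := hp.out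
  have htp : t ^ p ∈ A := by
    have h1 : (QuotientGroup.mk' A t) ^ (Nat.card (X ⧸ A)) = 1 := pow_card_eq_one'
    have h2 : Nat.card (X ⧸ A) = p := hA
    rw [h2, ← map_pow] at h1
    exact (QuotientGroup.eq_one_iff _).mp h1
  have hgen := exists_gen_of_index A hA htA
  set T := normMap A t p with hT
  have hTconj : ∀ a : A, T (MulAut.conjNormal t a) = T a := normMap_conj A t p htp
  set R : Subgroup X := T.ker.map A.subtype with hR
  have hRA : R ≤ A := map_subtype_le _
  have hRmem : ∀ a : A, (a : X) ∈ R ↔ T a = 1 := by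
    intro a
    constructor
    · rintro ⟨b, hb, hba⟩
      have : b = a := Subtype.ext hba
      rw [← this]
      exact hb
    · intro h
      exact ⟨a, h, rfl⟩
  have hRn : R.Normal := by
    rw [← normalizer_eq_top_iff, eq_top_iff]
    intro x _
    obtain ⟨k, a, ha, rfl⟩ := hgen x
    apply mul_mem
    · apply zpow_mem
      apply mem_normalizer_of_conj_mem
      rintro _ ⟨r, hr, rfl⟩
      have : t * (r : X) * t⁻¹ = ((MulAut.conjNormal t r : A) : X) := by
        rw [MulAut.conjNormal_apply]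
      rw [subtype_apply, this, hRmem, hTconj]
      exact hr
    · apply mem_normalizer_of_conj_mem
      rintro _ ⟨r, hr, rfl⟩
      have : a * (r : X) * a⁻¹ = (((⟨a, ha⟩ : A) * r * (⟨a, ha⟩ : A)⁻¹ : A) : X) := rfl
      rw [subtype_apply, this, hRmem, map_mul, map_mul, map_inv, MonoidHom.mem_ker.mp hr, mul_one,
        mul_inv_cancel]
  have hDR : commutator X ≤ R := by
    apply commutator_le_of_central A R t hgen
    · intro a ha
      have e : a * t * a⁻¹ * t⁻¹
          = (((⟨a, ha⟩ : A) * (MulAut.conjNormal t (⟨a, ha⟩ : A))⁻¹ : A) : X) := by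
        simp only [Subgroup.coe_mul, InvMemClass.coe_inv, MulAut.conjNormal_apply]
        group
      rw [e, hRmem, map_mul, map_inv, hTconj, mul_inv_cancel]
    · intro a ha b hb
      have e : a * b * a⁻¹ * b⁻¹
          = ((⁅(⟨a, ha⟩ : A), (⟨b, hb⟩ : A)⁆ : A) : X) := rfl
      rw [e, hRmem, map_commutatorElement, commutatorElement_eq_one_iff_mul_comm, mul_comm]
  -- commutators of `A`
  have hFF : ⁅F, F⁆ ≤ F := by
    rw [commutator_le]
    intro a ha b hb
    exact mul_mem (mul_mem (mul_mem ha hb) (inv_mem ha)) (inv_mem hb)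
  have hFE : ⁅⁅F, F⁆, E⁆ = ⊥ := by
    rw [commutator_eq_bot_iff_le_centralizer]
    intro y hy
    rw [mem_centralizer_iff]
    intro e he
    exact (hcomm y (hFF hy) e he).symm
  have hAA : ⁅A, A⁆ ≤ ⁅F, F⁆ ⊔ E := by
    rw [commutator_le]
    intro a ha b hb
    obtain ⟨f1, hf1, e1, he1, rfl⟩ := hdec a ha
    obtain ⟨f2, hf2, e2, he2, rfl⟩ := hdec b hb
    rw [commutator_mul_mul (hcomm f1 hf1 e1 he1) (hcomm f1 hf1 e2 he2) (hcomm f2 hf2 e1 he1)
      (hcomm f2 hf2 e2 he2)]
    exact mul_mem ((le_sup_left : ⁅F, F⁆ ≤ _) (commutator_mem_commutator hf1 hf2))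
      ((le_sup_right : E ≤ _) (mul_mem (mul_mem (mul_mem he1 he2) (inv_mem he1)) (inv_mem he2)))
  -- the key inclusion
  have key : ∀ f ∈ F, f ∈ commutator X → f ∈ ⁅F, F⁆ := by
    intro f hf hfD
    set fA : A := ⟨f, hFA hf⟩ with hfA
    have hT1 : T fA = 1 := (hRmem fA).mp (hDR hfD)
    obtain ⟨q, rfl⟩ : ∃ q, p = q + 1 := ⟨p - 1, by have := hp'.pos; omega⟩
    rw [hT, normMap_apply, Finset.prod_range_succ'] at hT1
    have hE1 : ∀ n, n ≤ q → ∃ e : A, (e : X) ∈ E ∧ ∏ i ∈ Finset.range n,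
        (Abelianization.of (MulAut.conjNormal (t ^ (i + 1)) fA)) = Abelianization.of e := by
      intro n
      induction n with
      | zero =>
        intro _
        exact ⟨1, E.one_mem, by simp⟩
      | succ n ih =>
        intro hn
        obtain ⟨e, he, hprod⟩ := ih (by omega)
        refine ⟨e * MulAut.conjNormal (t ^ (n + 1)) fA, ?_, ?_⟩
        · refine E.mul_mem he ?_
          rw [MulAut.conjNormal_apply]
          exact hmove (n + 1) (by omega) (by omega) f hf
        · rw [Finset.prod_range_succ, hprod, map_mul]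
    obtain ⟨e, he, hprod⟩ := hE1 q le_rfl
    simp only [pow_zero, map_one, MulAut.one_apply] at hT1
    rw [hprod, ← map_mul] at hT1
    have h5 : e * fA ∈ commutator A := by
      rw [← Abelianization.ker_of]
      exact hT1
    have h6 : (e : X) * f ∈ ⁅A, A⁆ := by
      rw [← map_subtype_commutator]
      exact ⟨e * fA, h5, rfl⟩
    obtain ⟨a, ha, b, hb, hab⟩ := Cfsg.Agent.Lib.Components.Basic.mem_sup_of_commutator_eq_bot hFE
      (hAA h6)
    have h7 : f * (e : X) = (e : X) * f := hcomm f hf e he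
    have h8 : a⁻¹ * f = b * (e : X)⁻¹ := by
      rw [inv_mul_eq_iff_eq_mul, ← mul_assoc, eq_mul_inv_iff_mul_eq, hab, h7]
    have h9 : a⁻¹ * f ∈ F ⊓ E := Subgroup.mem_inf.mpr
      ⟨F.mul_mem (F.inv_mem (hFF ha)) hf, h8 ▸ E.mul_mem hb (E.inv_mem he)⟩
    rw [hdisj, mem_bot] at h9
    have h10 : f = a := by
      rw [inv_mul_eq_one] at h9
      exact h9.symm
    rw [h10]
    exact ha
  have hFeq : ⁅F, F⁆ = F ⊓ commutator X :=
    le_antisymm (le_inf hFF (by rw [_root_.commutator_def]; exact commutator_mono le_top le_top))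
      (fun x hx => key x hx.1 hx.2)
  have hYidx : (commutator F).index ≤ p := by
    have e : commutator F = (⁅F, F⁆).subgroupOf F := by
      rw [← map_subtype_commutator, subgroupOf, comap_map_eq_self_of_injective F.subtype_injective]
    rw [e, ← relIndex, hFeq, inf_relIndex_left, ← hrel]
    apply relIndex_le_of_le_right hFA
    rw [hrel]
    exact hp'.ne_zero
  intro a ha b hb
  have := comm_of_index_le (hX.to_subgroup F) hYidx ⟨a, ha⟩ ⟨b, hb⟩
  exact congrArg Subtype.val this

end Cfsg.Agent.Lib.AbP2.Norm
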