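import Cfsg.Agent.Lib.Core.SylowFacts

/-!
# Sylow subgroups of an internal direct product
-/

set_option autoImplicit false

namespace Cfsg.Agent.Lib.AbP2.Prod

open Subgroup Cfsg.Agent.Lib.Core.SylowFacts
open scoped commutatorElement

universe u

variable {p : ℕ} [hp : Fact p.Prime] {Y : Type u} [Group Y] [Finite Y]

/-- Order of the join of two commuting subgroups with trivial intersection, as an injection. -/
theorem mul_injective_of_disjoint {H K : Subgroup Y} (hc : ∀ a ∈ H, ∀ b ∈ K, a * b = b * a)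
    (hd : H ⊓ K = ⊥) : Function.Injective (fun z : H × K => (z.1 : Y) * (z.2 : Y)) := by
  rintro ⟨a, b⟩ ⟨a', b'⟩ h
  simp only at h
  have h1 : (a' : Y)⁻¹ * a = b' * (b : Y)⁻¹ := by
    rw [inv_mul_eq_iff_eq_mul, ← mul_assoc, eq_mul_inv_iff_mul_eq, h]
  have h2 : (a' : Y)⁻¹ * a ∈ H ⊓ K := Subgroup.mem_inf.mpr
    ⟨H.mul_mem (H.inv_mem a'.2) a.2, h1 ▸ K.mul_mem b'.2 (K.inv_mem b.2)⟩
  rw [hd, mem_bot, inv_mul_eq_one] at h2
  have h3 : (a' : Y) = a := h2
  have h4 : (b : Y) = b' := by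
    rw [h3] at h
    exact mul_left_cancel h
  exact Prod.ext (Subtype.ext h3.symm) (Subtype.ext h4)

/-- A Sylow subgroup of an internal direct product is the product of its intersections. -/
theorem exists_decomp (K C : Subgroup Y) [K.Normal] [C.Normal] (hd : K ⊓ C = ⊥) (hs : K ⊔ C = ⊤)
    (S : Sylow p Y) {a : Y} (ha : a ∈ (S : Subgroup Y)) :
    ∃ f ∈ (S : Subgroup Y) ⊓ K, ∃ e ∈ (S : Subgroup Y) ⊓ C, a = f * e := by
  classical
  have hp' := hp.out
  have hcomm : ∀ x ∈ K, ∀ y ∈ C, x * y = y * x := by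
    intro x hx y hy
    have h1 : ⁅x, y⁆ ∈ K ⊓ C := commutator_le_inf K C (commutator_mem_commutator hx hy)
    rw [hd, mem_bot, commutatorElement_eq_one_iff_mul_comm] at h1
    exact h1
  -- orders
  have hY : Nat.card Y = Nat.card K * Nat.card C := by
    have hbij : Function.Bijective (fun z : K × C => (z.1 : Y) * (z.2 : Y)) := by
      refine ⟨mul_injective_of_disjoint hcomm hd, fun y => ?_⟩
      have hy : y ∈ K ⊔ C := hs ▸ mem_top y
      obtain ⟨u, hu, v, hv, rfl⟩ := mem_sup_of_normal_right.mp hy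
      exact ⟨(⟨u, hu⟩, ⟨v, hv⟩), rfl⟩
    rw [← Nat.card_congr (Equiv.ofBijective _ hbij), Nat.card_prod]
  set S1 := (S : Subgroup Y) ⊓ K with hS1
  set S2 := (S : Subgroup Y) ⊓ C with hS2
  have hi1 : ¬ p ∣ ((S : Subgroup Y).subgroupOf K).index := not_dvd_subgroupOf_index S K
  have hi2 : ¬ p ∣ ((S : Subgroup Y).subgroupOf C).index := not_dvd_subgroupOf_index S C
  have hcard : ∀ H : Subgroup Y, Nat.card ((S : Subgroup Y).subgroupOf H)
      = Nat.card ((S : Subgroup Y) ⊓ H : Subgroup Y) := by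
    intro H
    rw [← subgroupOf_map_subtype, card_map_of_injective (subtype_injective H)]
  have hc1 : Nat.card K = Nat.card S1 * ((S : Subgroup Y).subgroupOf K).index := by
    rw [← card_mul_index ((S : Subgroup Y).subgroupOf K), hcard]
  have hc2 : Nat.card C = Nat.card S2 * ((S : Subgroup Y).subgroupOf C).index := by
    rw [← card_mul_index ((S : Subgroup Y).subgroupOf C), hcard]
  have hcS := card_mul_index (S : Subgroup Y)
  have hiS : ¬ p ∣ (S : Subgroup Y).index := S.not_dvd_index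
  have hP1 : IsPGroup p S1 := S.isPGroup'.to_le inf_le_left
  have hP2 : IsPGroup p S2 := S.isPGroup'.to_le inf_le_left
  obtain ⟨n1, hn1⟩ := hP1.exists_card_eq
  obtain ⟨n2, hn2⟩ := hP2.exists_card_eq
  obtain ⟨n3, hn3⟩ := S.isPGroup'.exists_card_eq
  have hco : ∀ m i : ℕ, ¬ p ∣ i → Nat.Coprime (p ^ m) i := fun m i hi =>
    Nat.Coprime.pow_left m ((Nat.Prime.coprime_iff_not_dvd hp').mpr hi)
  have hmain : Nat.card S1 * Nat.card S2 = Nat.card (S : Subgroup Y) := by
    have hh : (Nat.card S1 * Nat.card S2) * (((S : Subgroup Y).subgroupOf K).index *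
        ((S : Subgroup Y).subgroupOf C).index) = Nat.card (S : Subgroup Y) * (S : Subgroup Y).index := by
      rw [hcS, hY, hc1, hc2]
      ring
    rw [hn1, hn2, hn3] at hh ⊢
    rw [← pow_add] at hh ⊢
    apply Nat.dvd_antisymm
    · exact (hco _ _ hiS).dvd_of_dvd_mul_right (Dvd.intro _ hh)
    · have h5 : ¬ p ∣ ((S : Subgroup Y).subgroupOf K).index * ((S : Subgroup Y).subgroupOf C).index :=
        fun h => (hp'.dvd_mul.mp h).elim hi1 hi2
      exact (hco _ _ h5).dvd_of_dvd_mul_right (Dvd.intro _ hh.symm)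
  have hcomm' : ∀ x ∈ S1, ∀ y ∈ S2, x * y = y * x := fun x hx y hy => hcomm x hx.2 y hy.2
  have hd' : S1 ⊓ S2 = ⊥ := by
    rw [eq_bot_iff]
    intro x hx
    have : x ∈ K ⊓ C := ⟨hx.1.2, hx.2.2⟩
    rwa [hd] at this
  let ψ : S1 × S2 → (S : Subgroup Y) := fun z =>
    ⟨(z.1 : Y) * (z.2 : Y), (S : Subgroup Y).mul_mem z.1.2.1 z.2.2.1⟩
  have hinj : Function.Injective ψ := by
    intro u v huv
    exact mul_injective_of_disjoint hcomm' hd' (congrArg Subtype.val huv)
  have hbij := hinj.bijective_of_nat_card_le (by rw [Nat.card_prod, hmain])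
  obtain ⟨z, hz⟩ := hbij.2 ⟨a, ha⟩
  exact ⟨z.1, z.1.2, z.2, z.2.2, (congrArg Subtype.val hz).symm⟩

end Cfsg.Agent.Lib.AbP2.Prod
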