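import Mathlib
import Cfsg.Agent.Lib.Solvable.Hall
import Cfsg.Agent.Lib.PGroups.Basic

/-!
# A `p`-group with an element whose centralizer has order `p²` has `|X : X'| = p²`
-/

set_option autoImplicit false

namespace Cfsg.Agent.Lib.AbP2.Suzuki

open Subgroup
open scoped commutatorElement

universe u

variable {p : ℕ} [hp : Fact p.Prime]

theorem comm_of_card_dvd {X : Type u} [Group X] [Finite X] (h : Nat.card X ∣ p ^ 2)
    (a b : X) : a * b = b * a := by
  obtain ⟨k, hk, hc⟩ := (Nat.dvd_prime_pow hp.out).mp h
  have hX : IsPGroup p X := IsPGroup.of_card hc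
  interval_cases k
  · have : Subsingleton X := (Nat.card_eq_one_iff_unique.mp (by simpa using hc)).1
    exact Subsingleton.elim _ _
  · have : Fact (Nat.card X).Prime := ⟨by rw [hc, pow_one]; exact hp.out⟩
    have : IsCyclic X := isCyclic_of_prime_card rfl
    let _ := IsCyclic.commGroup (α := X)
    exact mul_comm a b
  · have := IsPGroup.isMulCommutative_of_card_eq_prime_sq (p := p) hc
    exact this.is_comm.comm a b

/-- Suzuki's lemma. -/
theorem index_commutator (n : ℕ) : ∀ (X : Type u) [Group X] [Finite X], Nat.card X ≤ n → IsPGroup p X →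
    (¬ ∀ a b : X, a * b = b * a) → ∀ y : X, Nat.card (centralizer ({y} : Set X)) ∣ p ^ 2 →
    (commutator X).index = p ^ 2 := by
  induction n with
  | zero =>
    intro X _ _ hn
    have := Nat.card_pos (α := X)
    omega
  | succ n ih =>
    intro X _ _ hn hX hna y hy
    classical
    have hp' := hp.out
    have hnt : Nontrivial X := by
      by_contra hcon
      rw [not_nontrivial_iff_subsingleton] at hcon
      exact hna fun a b => Subsingleton.elim _ _
    set Z := center X with hZ
    set C := centralizer ({y} : Set X) with hC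
    have hyZ : y ∉ Z := by
      intro hy'
      apply hna
      have : C = ⊤ := by
        rw [eq_top_iff]
        intro g _
        rw [hC, mem_centralizer_singleton_iff]
        exact ((mem_center_iff.mp hy') g)
      rw [this, Subgroup.card_top] at hy
      exact comm_of_card_dvd hy
    have hZC : Z ≤ C := by
      intro z hz
      rw [hC, mem_centralizer_singleton_iff]
      exact ((mem_center_iff.mp hz) y).symm
    have hyC : y ∈ C := by
      rw [hC, mem_centralizer_singleton_iff]
    -- orders
    obtain ⟨k, hk⟩ := (hX.to_subgroup Z).exists_card_eq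
    have hZne : k ≠ 0 := by
      rintro rfl
      have hZbot : Z = ⊥ := (Subgroup.card_eq_one).mp (by simpa using hk)
      exact (hX.bot_lt_center).ne' hZbot
    have hrel : Z.relIndex C ≠ 1 := by
      intro h
      rw [relIndex_eq_one] at h
      exact hyZ (h hyC)
    have hcardC : Nat.card C = Nat.card Z * Z.relIndex C := by
      have h1 := card_mul_index (Z.subgroupOf C)
      rw [← relIndex, Nat.card_congr (subgroupOfEquivOfLe hZC).toEquiv] at h1
      exact h1.symm
    have hprod : p ^ k * Z.relIndex C ∣ p ^ 2 := by rw [← hk, ← hcardC]; exact hy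
    obtain ⟨j, hj, hjr⟩ := (Nat.dvd_prime_pow hp').mp (dvd_of_mul_left_dvd hprod)
    have hj0 : j ≠ 0 := by
      rintro rfl
      exact hrel (by simpa using hjr)
    rw [hjr, ← pow_add] at hprod
    have hkj : k + j ≤ 2 := (Nat.pow_dvd_pow_iff_le_right hp'.one_lt).mp hprod
    have hk1 : k = 1 := by omega
    have hj1 : j = 1 := by omega
    subst hk1 hj1
    rw [pow_one] at hk hjr
    have hcardC' : Nat.card C = p ^ 2 := by rw [hcardC, hk, hjr, pow_two]
    -- commutator subgroup
    have hcne : commutator X ≠ ⊥ := by
      intro h0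
      apply hna
      intro a b
      have h1 : ⁅a, b⁆ ∈ commutator X := commutator_mem_commutator (mem_top a) (mem_top b)
      rw [h0, mem_bot, commutatorElement_eq_one_iff_mul_comm] at h1
      exact h1
    obtain ⟨z, hz1, hz2, hz3⟩ := Cfsg.Agent.Lib.PGroups.Basic.exists_central_orderOf_eq hX
      (commutator X) hcne
    have hZX : Z ≤ commutator X := by
      have h1 : zpowers z ≤ Z := (zpowers_le).mpr hz2
      have h2 : zpowers z = Z := Subgroup.eq_of_le_of_card_ge h1 (by
        rw [Nat.card_zpowers, hz3, hk])
      rw [← h2]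
      exact (zpowers_le).mpr hz1
    -- quotient
    let π := QuotientGroup.mk' Z
    have hπ : Function.Surjective π := QuotientGroup.mk'_surjective Z
    set Cb := centralizer ({π y} : Set (X ⧸ Z)) with hCb
    set K := Cb.comap π with hK
    have hcardK := Cfsg.Agent.Lib.Solvable.Hall.card_comap_mk' Z Cb
    have hcommZ : ∀ u ∈ K, ⁅u, y⁆ ∈ Z := by
      intro u hu
      have h1 : π u ∈ Cb := hu
      rw [hCb, mem_centralizer_singleton_iff] at h1
      rw [← QuotientGroup.ker_mk' Z, MonoidHom.mem_ker, map_commutatorElement]
      rw [commutatorElement_eq_one_iff_mul_comm]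
      exact h1
    let f : K →* Z := MonoidHom.mk' (fun u => ⟨⁅(u : X), y⁆, hcommZ u u.2⟩) (by
      intro a b
      apply Subtype.ext
      simp only [Subgroup.coe_mul, Submonoid.coe_mul, commutatorElement_def]
      have h1 := mem_center_iff.mp (hcommZ b b.2)
      rw [commutatorElement_def] at h1
      have e1 : (b : X) * y * (b : X)⁻¹ = ((b : X) * y * (b : X)⁻¹ * y⁻¹) * y := by group
      calc (a : X) * b * y * ((a : X) * b)⁻¹ * y⁻¹
          = (a : X) * ((b : X) * y * (b : X)⁻¹) * (a : X)⁻¹ * y⁻¹ := by group
        _ = (a : X) * (((b : X) * y * (b : X)⁻¹ * y⁻¹) * y) * (a : X)⁻¹ * y⁻¹ := by rw [← e1]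
        _ = ((b : X) * y * (b : X)⁻¹ * y⁻¹) * ((a : X) * y * (a : X)⁻¹ * y⁻¹) := by
            rw [← mul_assoc (a : X), h1 a]
            group
        _ = ((a : X) * y * (a : X)⁻¹ * y⁻¹) * ((b : X) * y * (b : X)⁻¹ * y⁻¹) :=
            (h1 _).symm)
    have hkerf : Nat.card f.ker ≤ Nat.card C := by
      have hinj : Function.Injective (fun u : f.ker => (⟨((u : K) : X), by
        have h1 : f u = 1 := u.2
        have h2 : ⁅((u : K) : X), y⁆ = 1 := congrArg Subtype.val h1
        rw [commutatorElement_eq_one_iff_mul_comm] at h2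
        rw [hC, mem_centralizer_singleton_iff]
        exact h2⟩ : C)) := by
        intro a b hab
        exact Subtype.ext (Subtype.ext (by simpa using hab))
      exact Nat.card_le_card_of_injective _ hinj
    have hcardK2 : Nat.card K ≤ p ^ 2 * p := by
      have h1 := card_mul_index f.ker
      rw [index_ker] at h1
      rw [← h1]
      have h2 : Nat.card f.range ≤ Nat.card Z := Nat.card_le_card_of_injective _ Subtype.val_injective
      rw [hk] at h2
      rw [hcardC'] at hkerf
      exact Nat.mul_le_mul hkerf h2
    have hCbcard : Nat.card Cb ≤ p ^ 2 := by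
      have hcK : Nat.card K = Nat.card Cb * p := by rw [hK]; rw [hcardK, hk]
      rw [hcK] at hcardK2
      exact Nat.le_of_mul_le_mul_right hcardK2 hp'.pos
    have hXb : IsPGroup p (X ⧸ Z) := hX.of_surjective π hπ
    have hCbdvd : Nat.card Cb ∣ p ^ 2 := by
      obtain ⟨m, hm⟩ := (hXb.to_subgroup Cb).exists_card_eq
      rw [hm] at hCbcard ⊢
      exact pow_dvd_pow _ ((Nat.pow_le_pow_iff_right hp'.one_lt).mp hCbcard)
    have hcardQ : Nat.card X = Nat.card (X ⧸ Z) * p := by
      rw [← hk]
      exact Subgroup.card_eq_card_quotient_mul_card_subgroup Z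
    have hlt : Nat.card (X ⧸ Z) ≤ n := by
      have h1 : 0 < Nat.card (X ⧸ Z) := Nat.card_pos
      have h2 := hp'.two_le
      nlinarith
    by_cases hab : ∀ a b : X ⧸ Z, a * b = b * a
    · -- `X / Z` abelian
      have h1 : commutator X ≤ Z := by
        apply Subgroup.Normal.quotient_commutative_iff_commutator_le.mp
        exact ⟨⟨hab⟩⟩
      have h2 : commutator X = Z := le_antisymm h1 hZX
      have hCbtop : Cb = ⊤ := by
        rw [eq_top_iff]
        intro g _
        rw [hCb, mem_centralizer_singleton_iff]
        exact hab _ _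
      rw [hCbtop, Subgroup.card_top] at hCbdvd
      obtain ⟨m, hm, hm2⟩ := (Nat.dvd_prime_pow hp').mp hCbdvd
      have hCindex : C.index ≠ 1 := by
        intro h3
        rw [index_eq_one] at h3
        apply hyZ
        rw [hZ, mem_center_iff]
        intro g
        have : g ∈ C := h3 ▸ mem_top g
        rw [hC, mem_centralizer_singleton_iff] at this
        exact this
      have hcX := card_mul_index C
      rw [hcardC'] at hcX
      have hCi : p ∣ C.index := by
        obtain ⟨m', hm'⟩ := hX.index C
        rw [hm'] at hCindex ⊢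
        exact dvd_pow_self p (by rintro rfl; exact hCindex rfl)
      obtain ⟨w, hw⟩ := hCi
      have h3 : Nat.card (X ⧸ Z) = p ^ 2 := by
        have h4 : Nat.card (X ⧸ Z) * p = p ^ 2 * (p * w) := by
          rw [← hcardQ, ← hcX, hw]
        have hw0 : 0 < w := by
          rcases Nat.eq_zero_or_pos w with h | h
          · subst h
            exfalso
            have h8 : 0 < Nat.card (X ⧸ Z) * p := Nat.mul_pos Nat.card_pos hp'.pos
            rw [h4] at h8
            simp at h8
          · exact h
        have h5 : Nat.card (X ⧸ Z) = p ^ 2 * w := by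
          have : Nat.card (X ⧸ Z) * p = (p ^ 2 * w) * p := by rw [h4]; ring
          exact Nat.eq_of_mul_eq_mul_right hp'.pos this
        rw [hm2] at h5
        have h6 : p ^ 2 ≤ p ^ m := by
          rw [h5]
          exact Nat.le_mul_of_pos_right _ hw0
        have h7 : 2 ≤ m := (Nat.pow_le_pow_iff_right hp'.one_lt).mp h6
        have : m = 2 := by omega
        rw [hm2, this]
      rw [h2, Subgroup.index_eq_card, h3]
    · -- induction
      have h1 := ih (X ⧸ Z) hlt hXb hab (π y) hCbdvd
      have h2 : commutator (X ⧸ Z) = (commutator X).map π := by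
        rw [_root_.commutator_def, _root_.commutator_def, map_commutator,
          map_top_of_surjective _ hπ]
      rw [h2, Subgroup.index_map] at h1
      have h3 : π.ker = Z := QuotientGroup.ker_mk' Z
      rw [h3, sup_eq_left.mpr hZX, MonoidHom.range_eq_top.mpr hπ, index_top, mul_one] at h1
      exact h1

end Cfsg.Agent.Lib.AbP2.Suzuki
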