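import Cfsg.Agent.Lib.FG7.Tate2Gen
import Cfsg.Agent.Lib.AbP2.Suzuki
import Cfsg.Agent.Lib.AbP2.Norm
import Cfsg.Agent.Lib.AbP2.Prod

/-!
# The element with centralizer of `p`-part `p²`, and the converse
-/

set_option autoImplicit false

namespace Cfsg.Agent.Lib.AbP2.Final

open Cfsg Subgroup Cfsg.Agent.Lib.FG7.Tate2Gen Cfsg.Agent.Lib.Core.Basic
  Cfsg.Agent.Lib.Components.Basic
open scoped commutatorElement

universe u

variable {G : Type u} [Group G] [Finite G] {p : ℕ} [hp : Fact p.Prime]

omit [Finite G] in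
theorem commutator_subgroupOf (P : Subgroup G) : commutator P = (⁅P, P⁆).subgroupOf P := by
  rw [← map_subtype_commutator, subgroupOf, comap_map_eq_self_of_injective P.subtype_injective]

omit [Finite G] in
theorem relIndex_eq (P : Subgroup G) : (⁅P, P⁆).relIndex P = (commutator P).index := by
  rw [commutator_subgroupOf, relIndex]

omit [Finite G] in
theorem der_eq (P : Sylow p G) : der P = ⁅(P : Subgroup G), (P : Subgroup G)⁆ := by
  rw [der, map_subtype_commutator]

theorem card_centralizer_conj (x g : G) :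
    Nat.card (centralizer ({g * x * g⁻¹} : Set G)) = Nat.card (centralizer ({x} : Set G)) := by
  have h : centralizer ({g * x * g⁻¹} : Set G)
      = (centralizer ({x} : Set G)).map (MulAut.conj g).toMonoidHom := by
    ext u
    constructor
    · intro hu
      refine ⟨g⁻¹ * u * g, ?_, by simp [mul_assoc]⟩
      have h2 : u * (g * x * g⁻¹) = g * x * g⁻¹ * u := mem_centralizer_singleton_iff.mp hu
      rw [SetLike.mem_coe, mem_centralizer_singleton_iff]
      calc g⁻¹ * u * g * x = g⁻¹ * (u * (g * x * g⁻¹)) * g := by group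
        _ = g⁻¹ * (g * x * g⁻¹ * u) * g := by rw [h2]
        _ = x * (g⁻¹ * u * g) := by group
    · rintro ⟨v, hv, rfl⟩
      rw [SetLike.mem_coe, mem_centralizer_singleton_iff] at hv
      rw [mem_centralizer_singleton_iff]
      simp only [MulEquiv.toMonoidHom_eq_coe, MonoidHom.coe_coe, MulAut.conj_apply]
      calc g * v * g⁻¹ * (g * x * g⁻¹) = g * (v * x) * g⁻¹ := by group
        _ = g * (x * v) * g⁻¹ := by rw [hv]
        _ = g * x * g⁻¹ * (g * v * g⁻¹) := by group
  rw [h, card_map_of_injective (MulAut.conj g).injective]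

/-- Indices. -/
theorem indices (P : Sylow p G) (M : Subgroup G) [hM : M.Normal]
    (hidx : (commutator (P : Subgroup G)).index = p ^ 2) (hD : der P ≤ M)
    (hAnot : ¬ M ⊓ P ≤ der P) {t : G} (htP : t ∈ (P : Subgroup G)) (htM : t ∉ M) :
    (M.subgroupOf (P : Subgroup G)).index = p ∧
      (commutator (P : Subgroup G)).relIndex (M.subgroupOf (P : Subgroup G)) = p := by
  have hp' := hp.out
  set A := M.subgroupOf (P : Subgroup G) with hA
  set D := commutator (P : Subgroup G) with hDdef
  have hDA : D ≤ A := by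
    intro x hx
    rw [hA, mem_subgroupOf]
    exact hD ⟨x, hx, rfl⟩
  have h1 := relIndex_mul_index hDA
  rw [hidx] at h1
  have hi1 : A.index ≠ 1 := by
    intro h
    have : A = ⊤ := index_eq_one.mp h
    have h2 : (⟨t, htP⟩ : (P : Subgroup G)) ∈ A := this ▸ mem_top _
    exact htM (mem_subgroupOf.mp h2)
  have hi2 : D.relIndex A ≠ 1 := by
    intro h
    apply hAnot
    rw [relIndex_eq_one] at h
    rintro x ⟨hx1, hx2⟩
    have h2 : (⟨x, hx2⟩ : (P : Subgroup G)) ∈ A := mem_subgroupOf.mpr hx1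
    exact ⟨_, h h2, rfl⟩
  obtain ⟨j, hj, hj1⟩ := (Nat.dvd_prime_pow hp').mp (Dvd.intro_left _ h1)
  obtain ⟨l, hl, hl1⟩ := (Nat.dvd_prime_pow hp').mp (Dvd.intro _ h1)
  rw [hj1, hl1, ← pow_add] at h1
  have h3 : l + j = 2 := Nat.pow_right_injective hp'.two_le h1
  have hj0 : j ≠ 0 := by
    rintro rfl
    exact hi1 (by simpa using hj1)
  have hl0 : l ≠ 0 := by
    rintro rfl
    exact hi2 (by simpa using hl1)
  have hj2 : j = 1 := by omega
  have hl2 : l = 1 := by omega
  subst hj2 hl2
  exact ⟨by simpa using hj1, by simpa using hl1⟩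

/-- The good element. -/
theorem exists_good (P : Sylow p G) (M : Subgroup G) [hM : M.Normal]
    (hidx : (commutator (P : Subgroup G)).index = p ^ 2) (hD : der P ≤ M)
    (hAnot : ¬ M ⊓ P ≤ der P) {t : G} (htP : t ∈ (P : Subgroup G)) (htM : t ∉ M)
    (hab : ∀ a ∈ M ⊓ (P : Subgroup G), ∀ b ∈ M ⊓ (P : Subgroup G), a * b = b * a) :
    ∃ x : G, (∃ k : ℕ, orderOf x = p ^ k) ∧
      (Nat.card (centralizer ({x} : Set G))).factorization p = 2 := by
  classical
  have hp' := hp.out
  obtain ⟨hA1, hA2⟩ := indices P M hidx hD hAnot htP htM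
  set A := M.subgroupOf (P : Subgroup G) with hA
  have hCX : ∀ y ∈ (P : Subgroup G), y ∉ M → ∀ (hy : y ∈ (P : Subgroup G)),
      Nat.card (centralizer ({(⟨y, hy⟩ : (P : Subgroup G))} : Set (P : Subgroup G))) = p ^ 2 := by
    intro y _ hyM hy
    apply Cfsg.Agent.Lib.AbP2.Norm.card_centralizer A hA1 _ hA2
    · intro h
      exact hyM (mem_subgroupOf.mp h)
    · intro a ha b hb
      apply Subtype.ext
      exact hab a ⟨mem_subgroupOf.mp ha, a.2⟩ b ⟨mem_subgroupOf.mp hb, b.2⟩
  refine ⟨t, ?_, ?_⟩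
  · have h1 := (IsPGroup.iff_orderOf.mp P.isPGroup') ⟨t, htP⟩
    simpa using h1
  set C := centralizer ({t} : Set G) with hC
  have hcard0 : Nat.card C ≠ 0 := Nat.card_pos.ne'
  have htC : t ∈ C := by
    rw [hC, mem_centralizer_singleton_iff]
  apply le_antisymm
  · -- upper bound
    obtain ⟨k, hk⟩ : ∃ k : ℕ, orderOf t = p ^ k := by
      have h1 := (IsPGroup.iff_orderOf.mp P.isPGroup') ⟨t, htP⟩
      simpa using h1
    have hZ : IsPGroup p (zpowers (⟨t, htC⟩ : C)) := by
      apply IsPGroup.of_card (n := k)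
      rw [Nat.card_zpowers, ← hk]
      simp
    obtain ⟨S, hS⟩ := hZ.exists_le_sylow
    have hS2 : IsPGroup p ((S : Subgroup C).map C.subtype) := S.isPGroup'.map _
    obtain ⟨Q, hQ⟩ := hS2.exists_le_sylow
    obtain ⟨g, hg⟩ := MulAction.exists_smul_eq G P Q
    have hmemQ : ∀ u ∈ (Q : Subgroup G), g⁻¹ * u * g ∈ (P : Subgroup G) := by
      intro u hu
      rw [← hg, Sylow.coe_subgroup_smul, Subgroup.mem_pointwise_smul_iff_inv_smul_mem] at hu
      simpa [MulAut.smul_def] using hu
    have htS : (⟨t, htC⟩ : C) ∈ (S : Subgroup C) := hS (mem_zpowers _)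
    have htQ : t ∈ (Q : Subgroup G) := hQ ⟨⟨t, htC⟩, htS, rfl⟩
    set y := g⁻¹ * t * g with hy
    have hyP : y ∈ (P : Subgroup G) := hmemQ t htQ
    have hyM : y ∉ M := by
      intro h
      apply htM
      have := hM.conj_mem y h g
      rwa [hy, show g * (g⁻¹ * t * g) * g⁻¹ = t by group] at this
    have h1 := hCX y hyP hyM hyP
    let φ : ↥(S : Subgroup C) → centralizer ({(⟨y, hyP⟩ : (P : Subgroup G))} : Set (P : Subgroup G)) :=
      fun s => ⟨⟨g⁻¹ * ((s : C) : G) * g, hmemQ _ (hQ ⟨s, s.2, rfl⟩)⟩, by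
        rw [mem_centralizer_singleton_iff]
        apply Subtype.ext
        have hs : ((s : C) : G) * t = t * ((s : C) : G) := mem_centralizer_singleton_iff.mp (s : C).2
        show g⁻¹ * ((s : C) : G) * g * y = y * (g⁻¹ * ((s : C) : G) * g)
        rw [hy]
        calc g⁻¹ * ((s : C) : G) * g * (g⁻¹ * t * g) = g⁻¹ * (((s : C) : G) * t) * g := by group
          _ = g⁻¹ * (t * ((s : C) : G)) * g := by rw [hs]
          _ = g⁻¹ * t * g * (g⁻¹ * ((s : C) : G) * g) := by group⟩
    have hφ : Function.Injective φ := by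
      intro a b hab
      have h2 : g⁻¹ * ((a : C) : G) * g = g⁻¹ * ((b : C) : G) * g :=
        congrArg (fun w => ((w : (P : Subgroup G)) : G)) (congrArg Subtype.val hab)
      have h3 : ((a : C) : G) = ((b : C) : G) := by simpa using h2
      exact Subtype.ext (Subtype.ext h3)
    have h2 := Nat.card_le_card_of_injective φ hφ
    rw [h1, S.card_eq_multiplicity] at h2
    exact (Nat.pow_le_pow_iff_right hp'.one_lt).mp h2
  · -- lower bound
    apply (hp'.pow_dvd_iff_le_factorization hcard0).mp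
    have h1 := hCX t htP htM htP
    rw [← h1]
    have h2 : ((centralizer ({(⟨t, htP⟩ : (P : Subgroup G))} : Set (P : Subgroup G)))).map
        (P : Subgroup G).subtype ≤ C := by
      rintro _ ⟨v, hv, rfl⟩
      have hv' := mem_centralizer_singleton_iff.mp hv
      rw [hC, mem_centralizer_singleton_iff]
      exact congrArg Subtype.val hv'
    have h3 := Subgroup.card_dvd_of_le h2
    rwa [card_map_of_injective (subtype_injective _)] at h3

/-- The converse direction. -/
theorem reverse (P : Sylow p G) (hbig : p ^ 2 ∣ Nat.card G) (x : G) (hx : ∃ k : ℕ, orderOf x = p ^ k)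
    (hC : (Nat.card (centralizer ({x} : Set G))).factorization p = 2) :
    (⁅(P : Subgroup G), (P : Subgroup G)⁆).relIndex (P : Subgroup G) = p ^ 2 := by
  classical
  have hp' := hp.out
  obtain ⟨k, hk⟩ := hx
  have hZ : IsPGroup p (zpowers x) := by
    apply IsPGroup.of_card (n := k)
    rw [Nat.card_zpowers, hk]
  obtain ⟨Q, hQ⟩ := hZ.exists_le_sylow
  obtain ⟨g, hg⟩ := MulAction.exists_smul_eq G Q P
  have hyP : g * x * g⁻¹ ∈ (P : Subgroup G) := by
    rw [← hg, Sylow.coe_subgroup_smul, Subgroup.mem_pointwise_smul_iff_inv_smul_mem]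
    have e : (MulAut.conj g)⁻¹ • (g * x * g⁻¹) = x := by
      simp only [MulAut.smul_def, map_inv, MulAut.conj_symm_apply, MulAut.inv_apply]
      group
    rw [e]
    exact hQ (mem_zpowers x)
  set y := g * x * g⁻¹ with hy
  have hcy : (Nat.card (centralizer ({y} : Set G))).factorization p = 2 := by
    rw [hy, card_centralizer_conj]
    exact hC
  have hY : Nat.card (centralizer ({(⟨y, hyP⟩ : (P : Subgroup G))} : Set (P : Subgroup G))) ∣ p ^ 2 := by
    set Y := centralizer ({(⟨y, hyP⟩ : (P : Subgroup G))} : Set (P : Subgroup G)) with hYdef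
    have h2 : Y.map (P : Subgroup G).subtype ≤ centralizer ({y} : Set G) := by
      rintro _ ⟨v, hv, rfl⟩
      have hv' := mem_centralizer_singleton_iff.mp hv
      rw [mem_centralizer_singleton_iff]
      exact congrArg Subtype.val hv'
    have h3 := Subgroup.card_dvd_of_le h2
    rw [card_map_of_injective (subtype_injective _)] at h3
    obtain ⟨m, hm⟩ := (P.isPGroup'.to_subgroup Y).exists_card_eq
    rw [hm] at h3 ⊢
    have h4 := (hp'.pow_dvd_iff_le_factorization Nat.card_pos.ne').mp h3
    rw [hcy] at h4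
    exact pow_dvd_pow _ h4
  rw [relIndex_eq]
  by_cases hab : ∀ a b : (P : Subgroup G), a * b = b * a
  · have h1 : commutator (P : Subgroup G) = ⊥ := by
      rw [_root_.commutator_def, eq_bot_iff, commutator_le]
      intro a _ b _
      rw [mem_bot, commutatorElement_eq_one_iff_mul_comm]
      exact hab a b
    have h2 : centralizer ({(⟨y, hyP⟩ : (P : Subgroup G))} : Set (P : Subgroup G)) = ⊤ := by
      rw [eq_top_iff]
      intro v _
      rw [mem_centralizer_singleton_iff]
      exact hab _ _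
    rw [h2, Subgroup.card_top] at hY
    have h3 : p ^ 2 ∣ Nat.card (P : Subgroup G) := P.pow_dvd_card_of_pow_dvd_card hbig
    rw [h1, index_bot]
    exact Nat.dvd_antisymm hY h3
  · exact Cfsg.Agent.Lib.AbP2.Suzuki.index_commutator _ _ le_rfl P.isPGroup' hab _ hY

end Cfsg.Agent.Lib.AbP2.Final
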