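import Cfsg.Agent.Lib.AbP2.Final

/-!
# The forward direction
-/

set_option autoImplicit false

namespace Cfsg.Agent.Lib.AbP2.Main

open Cfsg Subgroup Cfsg.Agent.Lib.FG7.Tate2Gen Cfsg.Agent.Lib.Core.Basic
  Cfsg.Agent.Lib.Components.Basic Cfsg.Agent.Lib.AbP2.Final
open Cfsg.Agent.Lib.Components.Central Cfsg.Agent.Lib.Components.Layer
open scoped commutatorElement

universe u

variable {G : Type u} [Group G] [Finite G] {p : ℕ} [hp : Fact p.Prime]

/-- The Frattini subgroup when the abelianization has order `p²` and the group is non-abelian. -/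
theorem frattini_data {X : Type*} [Group X] [Finite X] (hX : IsPGroup p X)
    (hna : ¬ ∀ a b : X, a * b = b * a) (hidx : (commutator X).index = p ^ 2) :
    (frattini X).index = p ^ 2 ∧ frattini X = commutator X := by
  have hp' := hp.out
  have hD : commutator X ≤ frattini X := Cfsg.Agent.Lib.PGroups.Basic.commutator_le_frattini hX
  have h1 := relIndex_mul_index hD
  rw [hidx] at h1
  obtain ⟨j, hj, hj1⟩ := (Nat.dvd_prime_pow hp').mp (Dvd.intro_left _ h1)
  have hj2 : j = 2 := by
    by_contra hne
    have hle : j ≤ 1 := by omega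
    apply hna
    -- `X / Φ(X)` cyclic
    obtain ⟨z, hz⟩ : ∃ z : X, zpowers z ⊔ frattini X = ⊤ := by
      by_cases htop : frattini X = ⊤
      · exact ⟨1, by rw [htop, sup_top_eq]⟩
      · have hj0 : j ≠ 0 := by
          rintro rfl
          apply htop
          rw [pow_zero] at hj1
          exact index_eq_one.mp hj1
        have hj3 : j = 1 := by omega
        subst hj3
        rw [pow_one] at hj1
        have hc : IsCoatom (frattini X) :=
          Cfsg.Agent.Lib.PGroups.Basic.isCoatom_of_index_prime (by rw [hj1]; exact hp')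
        obtain ⟨z, hz⟩ : ∃ z, z ∉ frattini X := by
          by_contra hcon
          push Not at hcon
          exact htop (eq_top_iff.mpr fun x _ => hcon x)
        refine ⟨z, ?_⟩
        rw [sup_comm]
        apply hc.2
        refine lt_of_le_of_ne le_sup_left ?_
        intro h'
        exact hz (by rw [h']; exact (le_sup_right : zpowers z ≤ _ ⊔ zpowers z) (mem_zpowers z))
    have h2 : zpowers z = ⊤ := frattini_nongenerating hz
    intro a b
    have ha : a ∈ zpowers z := h2 ▸ mem_top a
    have hb : b ∈ zpowers z := h2 ▸ mem_top b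
    obtain ⟨i, rfl⟩ := mem_zpowers_iff.mp ha
    obtain ⟨k, rfl⟩ := mem_zpowers_iff.mp hb
    exact ((Commute.refl z).zpow_zpow i k).eq
  subst hj2
  refine ⟨hj1, ?_⟩
  rw [hj1] at h1
  have h3 : (commutator X).relIndex (frattini X) = 1 :=
    Nat.eq_of_mul_eq_mul_right (pow_pos hp'.pos 2) (by rw [h1, one_mul])
  exact le_antisymm (relIndex_eq_one.mp h3) hD

/-- Component data in the perfect case. -/
theorem perfect_case (P : Sylow p G) (hna : ¬ IsMulCommutative (P : Subgroup G))
    (hgen : (frattini (P : Subgroup G)).index = p ^ 2) (hcore : pPrimeCore p G = ⊥)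
    (hnas : ¬ ∃ S : Subgroup G, S.Normal ∧ IsSimpleGroup S ∧ ¬ IsMulCommutative S ∧
      Subgroup.centralizer (S : Set G) = ⊥)
    (M : Subgroup G) [hMn : M.Normal] (hMne : M ≠ ⊥)
    (hMmin : ∀ N : Subgroup G, N.Normal → N ≠ ⊥ → M ≤ N) (hperf : ⁅M, M⁆ = M)
    (hidx : (commutator (P : Subgroup G)).index = p ^ 2) (hD : der P ≤ M)
    (hAnot : ¬ M ⊓ P ≤ der P) :
    (∃ t ∈ (P : Subgroup G), t ∉ M) ∧
      ∀ a ∈ M ⊓ (P : Subgroup G), ∀ b ∈ M ⊓ (P : Subgroup G), a * b = b * a := by
  classical
  have hp' := hp.out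
  obtain ⟨hfit, hF⟩ := genFit_eq_of_perfect hcore M hMne hMmin hperf
  have hlay : layer G = M := by
    have := hF
    rw [generalizedFittingSubgroup, hfit, sup_bot_eq] at this
    exact this
  obtain ⟨K0, hK0⟩ : ∃ K : Subgroup G, IsComponent K := by
    by_contra hcon
    push Not at hcon
    apply hMne
    rw [← hlay, layer, sSup_eq_bot]
    intro K hK
    exact absurd hK (hcon K)
  have hZ : ∀ K : Subgroup G, IsComponent K → center K = ⊥ := fun K hK =>
    center_component_eq_bot_of_fitting hfit hK
  have htrans := components_transitive P hna hgen hcore hfit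
  have hMN : ∀ K : Subgroup G, IsComponent K → M ≤ normalizer (K : Set G) := by
    intro K hK
    rw [← hlay]
    apply sSup_le
    intro D hD
    rcases component_eq_or_commutator_eq_bot hD hK with h | h
    · rw [h]
      exact le_normalizer
    · exact le_normalizer_of_commutator_eq_bot h
  have hKM : ∀ K : Subgroup G, IsComponent K → K ≤ M := fun K hK => by
    rw [← hlay]
    exact le_layer_of_isComponent hK
  -- `P` normalizes no component
  have hclaim : ∀ K : Subgroup G, IsComponent K → ¬ (P : Subgroup G) ≤ normalizer (K : Set G) := by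
    intro K hK hPN
    have huniq : ∀ L : Subgroup G, IsComponent L → L = K := by
      intro L hL
      obtain ⟨x, hx, rfl⟩ := htrans K L hK hL
      exact mem_normalizer_iff_map_conj_eq.mp (hPN hx)
    have hKeq : K = M := by
      rw [← hlay]
      apply le_antisymm (le_layer_of_isComponent hK)
      apply sSup_le
      intro L hL
      rw [huniq L hL]
    subst hKeq
    have hsimple : IsSimpleGroup K := by
      have h1 : IsSimpleGroup (K ⧸ center K) := hK.2.2
      let e : K ≃* (K ⧸ center K) := MulEquiv.ofBijective (QuotientGroup.mk' (center K))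
        ⟨by
          rw [injective_iff_map_eq_one]
          intro x hx
          have : x ∈ center K := (QuotientGroup.eq_one_iff x).mp hx
          rw [hZ K hK, mem_bot] at this
          exact this, QuotientGroup.mk'_surjective _⟩
      exact e.isSimpleGroup
    have hnc : ¬ IsMulCommutative K := by
      intro hc
      apply hMne
      rw [← hperf, eq_bot_iff, commutator_le]
      intro a ha b hb
      have := hc.is_comm.comm (⟨a, ha⟩ : K) ⟨b, hb⟩
      rw [mem_bot, commutatorElement_eq_one_iff_mul_comm]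
      exact congrArg Subtype.val this
    have hcen : centralizer (K : Set G) = ⊥ := by
      by_contra hne
      have h1 := hMmin _ (inferInstance : (centralizer (K : Set G)).Normal) hne
      apply hMne
      rw [← hperf, eq_bot_iff, commutator_le]
      intro a ha b hb
      have := (mem_centralizer_iff.mp (h1 ha)) b hb
      rw [mem_bot, commutatorElement_eq_one_iff_mul_comm]
      exact this.symm
    exact hnas ⟨K, hMn, hsimple, hnc, hcen⟩
  obtain ⟨t, htP, htN⟩ := SetLike.not_le_iff_exists.mp (hclaim K0 hK0)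
  have htM : t ∉ M := fun h => htN (hMN K0 hK0 h)
  refine ⟨⟨t, htP, htM⟩, ?_⟩
  obtain ⟨hA1, hA2⟩ := indices P M hidx hD hAnot htP htM
  set A := M.subgroupOf (P : Subgroup G) with hA
  set tX : (P : Subgroup G) := ⟨t, htP⟩ with htX
  have htXA : tX ∉ A := fun h => htM (mem_subgroupOf.mp h)
  have hgenX := Cfsg.Agent.Lib.AbP2.Norm.exists_gen_of_index A hA1 htXA
  -- powers of `t` do not normalize components
  have htpA : t ^ p ∈ M := by
    have h1 : (QuotientGroup.mk' A tX) ^ (Nat.card ((P : Subgroup G) ⧸ A)) = 1 := pow_card_eq_one'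
    have h2 : Nat.card ((P : Subgroup G) ⧸ A) = p := hA1
    rw [h2, ← map_pow] at h1
    have h3 : tX ^ p ∈ A := (QuotientGroup.eq_one_iff _).mp h1
    simpa [hA, mem_subgroupOf, htX] using h3
  have htnot : ∀ K : Subgroup G, IsComponent K → t ∉ normalizer (K : Set G) := by
    intro K hK hn
    apply hclaim K hK
    intro x hx
    obtain ⟨k, a, ha, hxe⟩ := hgenX ⟨x, hx⟩
    have h1 : x = t ^ k * (a : G) := by simpa [htX] using congrArg Subtype.val hxe
    rw [h1]
    exact mul_mem (zpow_mem hn k) (hMN K hK (mem_subgroupOf.mp ha))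
  have hpownot : ∀ K : Subgroup G, IsComponent K → ∀ i : ℕ, 0 < i → i < p →
      t ^ i ∉ normalizer (K : Set G) := by
    intro K hK i hi hip hn
    apply htnot K hK
    have hc : Nat.Coprime p i := (hp'.coprime_iff_not_dvd).mpr
      (fun h => by have := Nat.le_of_dvd hi h; omega)
    have e : (1 : ℤ) = (p : ℤ) * Nat.gcdA p i + (i : ℤ) * Nat.gcdB p i := by
      have := Nat.gcd_eq_gcd_ab p i
      rwa [hc.gcd_eq_one, Nat.cast_one] at this
    have e2 : t = (t ^ p) ^ Nat.gcdA p i * (t ^ i) ^ Nat.gcdB p i := by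
      conv_lhs => rw [← zpow_one t, e, zpow_add, zpow_mul, zpow_mul, zpow_natCast, zpow_natCast]
    rw [e2]
    exact mul_mem (zpow_mem (hMN K hK htpA) _) (zpow_mem hn _)
  have hdata : ∀ K : Subgroup G, IsComponent K →
      (∀ a ∈ A, ∃ f ∈ K.subgroupOf (P : Subgroup G),
        ∃ e ∈ (centralizer (K : Set G) ⊓ M).subgroupOf (P : Subgroup G), a = f * e) ∧
      (∀ a ∈ K.subgroupOf (P : Subgroup G), ∀ b ∈ K.subgroupOf (P : Subgroup G), a * b = b * a) := by
    intro K hK
    have hdec : ∀ a ∈ A, ∃ f ∈ K.subgroupOf (P : Subgroup G),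
        ∃ e ∈ (centralizer (K : Set G) ⊓ M).subgroupOf (P : Subgroup G), a = f * e := by
      intro a ha
      have haM : (a : G) ∈ M := mem_subgroupOf.mp ha
      let KY := K.subgroupOf M
      let CY := (centralizer (K : Set G)).subgroupOf M
      have hKYn : KY.Normal := (normal_subgroupOf_iff_le_normalizer (hKM K hK)).mpr (hMN K hK)
      have hCYn : CY.Normal := by
        constructor
        intro x hx g
        rw [mem_subgroupOf, mem_centralizer_iff] at hx ⊢
        intro k hk
        have h1 : (g : G)⁻¹ * k * g ∈ K := by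
          have h2 := (mem_normalizer_iff.mp (hMN K hK (M.inv_mem g.2))) k
          have h3 := h2.mp hk
          simpa using h3
        have h4 := hx _ h1
        simp only [Subgroup.coe_mul, InvMemClass.coe_inv] at *
        calc k * ((g : G) * (x : G) * (g : G)⁻¹)
            = g * (((g : G)⁻¹ * k * g) * (x : G)) * (g : G)⁻¹ := by group
          _ = g * ((x : G) * ((g : G)⁻¹ * k * g)) * (g : G)⁻¹ := by rw [h4]
          _ = (g : G) * (x : G) * (g : G)⁻¹ * k := by group
      have hd : KY ⊓ CY = ⊥ := by
        rw [eq_bot_iff]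
        rintro x ⟨hx1, hx2⟩
        have hx3 : (x : G) ∈ K := mem_subgroupOf.mp hx1
        have hx4 : (x : G) ∈ centralizer (K : Set G) := mem_subgroupOf.mp hx2
        have h5 : (⟨x, hx3⟩ : K) ∈ center K := by
          rw [mem_center_iff]
          intro g
          apply Subtype.ext
          exact (mem_centralizer_iff.mp hx4) g g.2
        rw [hZ K hK, mem_bot] at h5
        have h6 : (x : G) = 1 := congrArg (fun w : K => (w : G)) h5
        exact mem_bot.mpr (Subtype.ext h6)
      have hKC : ⁅K, centralizer (K : Set G)⁆ = ⊥ := by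
        rw [commutator_comm]
        exact commutator_eq_bot_iff_le_centralizer.mpr le_rfl
      have hlayC : M ≤ K ⊔ centralizer (K : Set G) := by
        rw [← hlay]
        apply sSup_le
        intro D hD
        rcases component_eq_or_commutator_eq_bot hD hK with h | h
        · rw [h]
          exact le_sup_left
        · exact le_trans (commutator_eq_bot_iff_le_centralizer.mp h) le_sup_right
      have hs : KY ⊔ CY = ⊤ := by
        rw [eq_top_iff]
        intro y _
        obtain ⟨k, hk, c, hc, hkc⟩ := mem_sup_of_commutator_eq_bot hKC (hlayC y.2)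
        have hkM : k ∈ M := hKM K hK hk
        have hcM : c ∈ M := by
          have : c = k⁻¹ * y := by rw [← hkc]; group
          rw [this]
          exact M.mul_mem (M.inv_mem hkM) y.2
        have e1 : y = (⟨k, hkM⟩ : M) * (⟨c, hcM⟩ : M) := Subtype.ext hkc.symm
        rw [e1]
        exact mul_mem ((le_sup_left : KY ≤ _) (mem_subgroupOf.mpr hk))
          ((le_sup_right : CY ≤ _) (mem_subgroupOf.mpr hc))
      let S := Cfsg.Agent.Lib.Core.SylowFacts.sylowOfNormal P M
      have haS : (⟨a, haM⟩ : M) ∈ (S : Subgroup M) := by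
        rw [Cfsg.Agent.Lib.Core.SylowFacts.coe_sylowOfNormal, mem_subgroupOf]
        exact a.2
      obtain ⟨f, hf, e, he, hfe⟩ := Cfsg.Agent.Lib.AbP2.Prod.exists_decomp KY CY hd hs S haS
      have hfP : (f : G) ∈ (P : Subgroup G) :=
        mem_subgroupOf.mp (show f ∈ (P : Subgroup G).subgroupOf M from (Subgroup.mem_inf.mp hf).1)
      have heP : (e : G) ∈ (P : Subgroup G) :=
        mem_subgroupOf.mp (show e ∈ (P : Subgroup G).subgroupOf M from (Subgroup.mem_inf.mp he).1)
      refine ⟨⟨f, hfP⟩, mem_subgroupOf.mpr (mem_subgroupOf.mp hf.2), ⟨e, heP⟩,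
        mem_subgroupOf.mpr ⟨mem_subgroupOf.mp he.2, e.2⟩, ?_⟩
      have h6 : (a : G) = (f : G) * (e : G) := congrArg (fun w : M => (w : G)) hfe
      exact Subtype.ext h6
    refine ⟨hdec, ?_⟩
    apply Cfsg.Agent.Lib.AbP2.Norm.comm_of_norm P.isPGroup' A (K.subgroupOf (P : Subgroup G))
      ((centralizer (K : Set G) ⊓ M).subgroupOf (P : Subgroup G)) tX hA1 htXA hA2
    · intro x hx
      exact mem_subgroupOf.mpr (hKM K hK (mem_subgroupOf.mp hx))
    · intro x hx
      exact mem_subgroupOf.mpr (mem_subgroupOf.mp hx).2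
    · exact hdec
    · intro f hf e he
      apply Subtype.ext
      exact ((mem_centralizer_iff.mp (mem_subgroupOf.mp he).1) _ (mem_subgroupOf.mp hf))
    · rw [eq_bot_iff]
      rintro x ⟨hx1, hx2⟩
      have hx3 : (x : G) ∈ K := mem_subgroupOf.mp hx1
      have hx4 : (x : G) ∈ centralizer (K : Set G) := (mem_subgroupOf.mp hx2).1
      have h5 : (⟨x, hx3⟩ : K) ∈ center K := by
        rw [mem_center_iff]
        intro g
        apply Subtype.ext
        exact (mem_centralizer_iff.mp hx4) g g.2
      rw [hZ K hK, mem_bot] at h5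
      have h6 : (x : G) = 1 := congrArg (fun w : K => (w : G)) h5
      exact mem_bot.mpr (Subtype.ext h6)
    · intro i hi hip f hf
      rw [mem_subgroupOf]
      have hfK : (f : G) ∈ K := mem_subgroupOf.mp hf
      have hval : ((tX ^ i * f * (tX ^ i)⁻¹ : (P : Subgroup G)) : G) = t ^ i * (f : G) * (t ^ i)⁻¹ := by
        simp [htX]
      rw [hval]
      refine ⟨?_, hMn.conj_mem _ (hKM K hK hfK) _⟩
      -- the conjugate component
      have hK' := isComponent_conj (t ^ i) hK
      have hne : K.map (MulAut.conj (t ^ i)).toMonoidHom ≠ K := by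
        intro h
        exact hpownot K hK i hi hip (mem_normalizer_iff_map_conj_eq.mpr h)
      rcases component_eq_or_commutator_eq_bot hK' hK with h | h
      · exact absurd h hne
      · exact commutator_eq_bot_iff_le_centralizer.mp h ⟨f, hfK, rfl⟩
  intro a ha b hb
  have haX : (⟨a, ha.2⟩ : (P : Subgroup G)) ∈ A := mem_subgroupOf.mpr ha.1
  have hbX : (⟨b, hb.2⟩ : (P : Subgroup G)) ∈ A := mem_subgroupOf.mpr hb.1
  have hz : ⁅a, b⁆ ∈ centralizer (layer G : Set G) := by
    apply mem_centralizer_layer_of_forall_component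
    intro K hK
    obtain ⟨h1, h2⟩ := hdata K hK
    obtain ⟨f1, hf1, e1, he1, e1eq⟩ := h1 _ haX
    obtain ⟨f2, hf2, e2, he2, e2eq⟩ := h1 _ hbX
    have hcF : ∀ f ∈ K.subgroupOf (P : Subgroup G),
        ∀ e ∈ (centralizer (K : Set G) ⊓ M).subgroupOf (P : Subgroup G), Commute f e := by
      intro f hf e he
      apply Subtype.ext
      exact ((mem_centralizer_iff.mp (mem_subgroupOf.mp he).1) _ (mem_subgroupOf.mp hf))
    have h3 := Cfsg.Agent.Lib.AbP2.Norm.commutator_mul_mul (hcF f1 hf1 e1 he1) (hcF f1 hf1 e2 he2)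
      (hcF f2 hf2 e1 he1) (hcF f2 hf2 e2 he2)
    rw [← e1eq, ← e2eq, (commutatorElement_eq_one_iff_mul_comm.mpr (h2 f1 hf1 f2 hf2)), one_mul] at h3
    have h4 : ⁅e1, e2⁆ ∈ (centralizer (K : Set G) ⊓ M).subgroupOf (P : Subgroup G) := by
      rw [commutatorElement_def]
      exact mul_mem (mul_mem (mul_mem he1 he2) (inv_mem he1)) (inv_mem he2)
    rw [← h3, mem_subgroupOf] at h4
    exact h4.1
  have hzl : ⁅a, b⁆ ∈ layer G := by
    rw [hlay, commutatorElement_def]
    exact M.mul_mem (M.mul_mem (M.mul_mem ha.1 hb.1) (M.inv_mem ha.1)) (M.inv_mem hb.1)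
  have h5 := mem_fitting_of_mem_layer_of_mem_centralizer hzl hz
  rw [hfit, mem_bot, commutatorElement_eq_one_iff_mul_comm] at h5
  exact h5

end Cfsg.Agent.Lib.AbP2.Main
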